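import Cfsg.Agent.H982.FR.Sum

/-!
# Two clean tori: the ratio form with the parity of the middle sum (helper628; S2452, on top of helper982's `Sum`)

`1 + St(x) St(y) + ∑ c d = 0` over the middle characters and `St(x) St(y) = ± 1`, so `∑ |c d|` is even.  Hence the
Cauchy bound `∑ |c d| < N + 2` with `N` even gives `∑ |c d| ≤ N`.

* `mid_sum_even` : the middle sum is even;
* `prd_of_ratio_even` : `prd_of_ratio` with `(w m - 2) (v k - 2) < (N + 2) ^ 2`, `N` even.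
  (`F₄(q)`, `q` odd: `w m - 2 = 10`, `v k - 2 = 14`, `140 < 144`, `N = 10`.)
-/

set_option autoImplicit false
set_option linter.unusedSectionVars false
set_option linter.style.haveILetI false

open Cfsg Subgroup
open scoped ComplexConjugate

namespace Cfsg.Agent.H628.FR

open Cfsg.Agent.Characters.Core Cfsg.Agent.H65.Ore Cfsg.Agent.H221.TC Cfsg.Agent.H982.FR
open Cfsg.Agent.H885.FT (mid mem_mid sum_mid norm_one_pos)

universe u

variable {G : Type u} [Group G] {A T B S : Subgroup G} {m k : ℕ}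

theorem sq_one_cases {a : ℤ} (h : a ^ 2 = 1) : a = 1 ∨ a = -1 := sq_eq_one_iff_of_ne_zero_or a h
where
  /-- helper -/
  sq_eq_one_iff_of_ne_zero_or (a : ℤ) (h : a ^ 2 = 1) : a = 1 ∨ a = -1 := by
    have h1 : (a - 1) * (a + 1) = 0 := by linear_combination h
    rcases mul_eq_zero.1 h1 with h2 | h2
    · left; linarith
    · right; linarith

/-- `∑ |a b|` and `∑ a b` have the same parity -/
theorem sum_abs_even {ι : Type*} (R : Finset ι) (c d : ι → ℤ) (h : Even (∑ i ∈ R, c i * d i)) :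
    Even (∑ i ∈ R, |c i| * |d i|) := by
  have h1 : Even (∑ i ∈ R, (|c i| * |d i| - c i * d i)) := by
    refine Finset.sum_induction _ (fun a : ℤ => Even a) (fun a b ha hb => ha.add hb) (by simp) fun i _ => ?_
    rw [← abs_mul]
    rcases abs_choice (c i * d i) with h2 | h2 <;> rw [h2]
    · simp
    · exact ⟨-(c i * d i), by ring⟩
  rw [Finset.sum_sub_distrib] at h1
  have h2 := h1.add h
  rwa [sub_add_cancel] at h2

/-- **The ratio form for two clean tori, with parity.** -/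
theorem prd_of_ratio_even [Finite G] (hT : Tor A T m) (hS : Tor B S k) {w v : ℕ}
    (hw : T.relIndex (normalizer (T : Set G)) = w) (hv : S.relIndex (normalizer (S : Set G)) = v)
    (hTc : Nat.card T = m * Nat.card A) (hSc : Nat.card S = k * Nat.card B)
    (hA : v * k * w + w + 1 < Nat.card A) (hA' : w * m + w + 1 < Nat.card A)
    (hB : w * m * v + v + 1 < Nat.card B) (hB' : v * k + v + 1 < Nat.card B)
    (hdis : ∀ t ∈ T, t ^ m ≠ 1 → ∀ s ∈ S, s ^ k ≠ 1 → ∀ z : G, t ≠ z * s * z⁻¹)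
    {x y g : G} (hx : x ∈ A) (hx1 : x ≠ 1) (hy : y ∈ B) (hy1 : y ≠ 1)
    {St : IrrCharacter G} (hSt1 : St ≠ one1 G) (hStx : ‖(St : G → ℂ) x‖ = 1) (hSty : ‖(St : G → ℂ) y‖ = 1)
    (hStg : (St : G → ℂ) g = 0) {N : ℕ} (hNe : Even N)
    (hN : ((w : ℤ) * m - 2) * ((v : ℤ) * k - 2) < ((N : ℤ) + 2) ^ 2)
    (hrat : ∀ χ : IrrCharacter G, χ ≠ one1 G → χ ≠ St → N * ‖(χ : G → ℂ) g‖ < ‖(χ : G → ℂ) 1‖) : Prd x y g := by
  classical
  have : Finite (IrrCharacter G) := finite_irr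
  have := Fintype.ofFinite (IrrCharacter G)
  by_contra hno
  have h0 : ∑ χ : IrrCharacter G, (χ : G → ℂ) x * (χ : G → ℂ) y * conj ((χ : G → ℂ) g) / (χ : G → ℂ) 1 = 0 := by
    by_contra h1
    exact hno (prd_of_ne_zero h1)
  have hdis' : ∀ s ∈ S, s ^ k ≠ 1 → ∀ t ∈ T, t ^ m ≠ 1 → ∀ z : G, s ≠ z * t * z⁻¹ := by
    intro s hs hs1 t ht ht1 z h1
    exact hdis t ht ht1 s hs hs1 z⁻¹ (by rw [h1]; group)
  have hcA : ∀ χ : IrrCharacter G, (χ : G → ℂ) y ≠ 0 → ∃ c : ℤ, ∀ a ∈ A, a ≠ 1 → (χ : G → ℂ) a = c := fun χ h =>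
    const_left hT hS hw hv hSc hA hB' hdis hy hy1 h
  have hcB : ∀ χ : IrrCharacter G, (χ : G → ℂ) x ≠ 0 → ∃ c : ℤ, ∀ b ∈ B, b ≠ 1 → (χ : G → ℂ) b = c := fun χ h =>
    const_left hS hT hv hw hTc hB hA' hdis' hx hx1 h
  let c : IrrCharacter G → ℤ := fun χ => if h : ∃ c : ℤ, ∀ a ∈ A, a ≠ 1 → (χ : G → ℂ) a = c then h.choose else 0
  let d : IrrCharacter G → ℤ := fun χ => if h : ∃ c : ℤ, ∀ b ∈ B, b ≠ 1 → (χ : G → ℂ) b = c then h.choose else 0
  have hc : ∀ χ : IrrCharacter G, (χ : G → ℂ) y ≠ 0 → ∀ a ∈ A, a ≠ 1 → (χ : G → ℂ) a = c χ := by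
    intro χ h
    have h1 := hcA χ h
    show ∀ a ∈ A, a ≠ 1 → (χ : G → ℂ) a = ((if h : ∃ c : ℤ, ∀ a ∈ A, a ≠ 1 → (χ : G → ℂ) a = c then h.choose else 0 : ℤ) : ℂ)
    rw [dif_pos h1]
    exact h1.choose_spec
  have hd : ∀ χ : IrrCharacter G, (χ : G → ℂ) x ≠ 0 → ∀ b ∈ B, b ≠ 1 → (χ : G → ℂ) b = d χ := by
    intro χ h
    have h1 := hcB χ h
    show ∀ b ∈ B, b ≠ 1 → (χ : G → ℂ) b = ((if h : ∃ c : ℤ, ∀ b ∈ B, b ≠ 1 → (χ : G → ℂ) b = c then h.choose else 0 : ℤ) : ℂ)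
    rw [dif_pos h1]
    exact h1.choose_spec
  -- the middle characters
  let R : Finset (IrrCharacter G) := (mid G St).filter fun χ => (χ : G → ℂ) x ≠ 0 ∧ (χ : G → ℂ) y ≠ 0
  have hR : ∀ χ ∈ R, (χ : G → ℂ) x = c χ ∧ (χ : G → ℂ) y = d χ ∧ χ ≠ St ∧ χ ≠ one1 G ∧ c χ ≠ 0 ∧ d χ ≠ 0 := by
    intro χ hχ
    obtain ⟨h1, h2, h3⟩ := Finset.mem_filter.1 hχ
    have h4 := hc χ h3 x hx hx1
    have h5 := hd χ h2 y hy hy1
    have h6 := mem_mid.1 h1
    refine ⟨h4, h5, h6.1, h6.2, ?_, ?_⟩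
    · intro h7; exact h2 (by rw [h4, h7]; simp)
    · intro h7; exact h3 (by rw [h5, h7]; simp)
  have hStx0 : (St : G → ℂ) x ≠ 0 := fun h => by rw [h] at hStx; simp at hStx
  have hSty0 : (St : G → ℂ) y ≠ 0 := fun h => by rw [h] at hSty; simp at hSty
  have hcSt : c St ^ 2 = 1 := by
    have h1 := hc St hSty0 x hx hx1
    rw [h1, Complex.norm_intCast] at hStx
    have h2 : |c St| = 1 := by exact_mod_cast hStx
    rw [← sq_abs, h2, one_pow]
  have hdSt : d St ^ 2 = 1 := by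
    have h1 := hd St hStx0 y hy hy1
    rw [h1, Complex.norm_intCast] at hSty
    have h2 : |d St| = 1 := by exact_mod_cast hSty
    rw [← sq_abs, h2, one_pow]
  have hc1 : c (one1 G) = 1 := by
    have h1 := hc (one1 G) (by rw [one1_apply]; exact one_ne_zero) x hx hx1
    rw [one1_apply] at h1
    exact_mod_cast h1.symm
  have hd1 : d (one1 G) = 1 := by
    have h1 := hd (one1 G) (by rw [one1_apply]; exact one_ne_zero) y hy hy1
    rw [one1_apply] at h1
    exact_mod_cast h1.symm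
  have hR1 : one1 G ∉ R := fun h => (hR _ h).2.2.2.1 rfl
  have hRS : St ∉ R := fun h => (hR _ h).2.2.1 rfl
  have hins : one1 G ∉ insert St R := by
    rw [Finset.mem_insert]
    rintro (h | h)
    · exact hSt1 h.symm
    · exact hR1 h
  have hcR : ∑ χ ∈ R, c χ ^ 2 ≤ (w : ℤ) * m - 2 := by
    have h1 := sum_const_le hT hw hTc (by omega) (insert (one1 G) (insert St R)) c (by
      intro χ hχ
      rw [Finset.mem_insert, Finset.mem_insert] at hχ
      rcases hχ with rfl | rfl | hχ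
      · exact hc _ (by rw [one1_apply]; exact one_ne_zero)
      · exact hc _ hSty0
      · exact hc _ (Finset.mem_filter.1 hχ).2.2)
    rw [Finset.sum_insert hins, Finset.sum_insert hRS, hcSt, hc1] at h1
    linarith
  have hdR : ∑ χ ∈ R, d χ ^ 2 ≤ (v : ℤ) * k - 2 := by
    have h1 := sum_const_le hS hv hSc (by omega) (insert (one1 G) (insert St R)) d (by
      intro χ hχ
      rw [Finset.mem_insert, Finset.mem_insert] at hχ
      rcases hχ with rfl | rfl | hχ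
      · exact hd _ (by rw [one1_apply]; exact one_ne_zero)
      · exact hd _ hStx0
      · exact hd _ (Finset.mem_filter.1 hχ).2.1)
    rw [Finset.sum_insert hins, Finset.sum_insert hRS, hdSt, hd1] at h1
    linarith
  -- the parity of the middle sum: orthogonality of the columns of `x` and `y`
  have hnc : ¬ IsConj x y := by
    intro h1
    obtain ⟨z, hz⟩ := isConj_iff.1 h1
    exact hdis x (hT.le hx) (pow_ne hT hx hx1) y (hS.le hy) (pow_ne hS hy hy1) z⁻¹ (by rw [← hz]; group)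
  have hpar : Even (∑ χ ∈ R, c χ * d χ) := by
    have h1 := H686.CharKit.col_orth x y
    rw [if_neg hnc] at h1
    have h2 : ∑ χ : IrrCharacter G, (χ : G → ℂ) x * conj ((χ : G → ℂ) y) =
        ∑ χ ∈ insert (one1 G) (insert St R), ((c χ * d χ : ℤ) : ℂ) := by
      rw [← Finset.sum_subset (Finset.subset_univ (insert (one1 G) (insert St R)))]
      · refine Finset.sum_congr rfl fun χ hχ => ?_
        rw [Finset.mem_insert, Finset.mem_insert] at hχ
        have h3 : (χ : G → ℂ) x = c χ ∧ (χ : G → ℂ) y = d χ := by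
          rcases hχ with rfl | rfl | hχ
          · exact ⟨hc _ (by rw [one1_apply]; exact one_ne_zero) x hx hx1,
              hd _ (by rw [one1_apply]; exact one_ne_zero) y hy hy1⟩
          · exact ⟨hc _ hSty0 x hx hx1, hd _ hStx0 y hy hy1⟩
          · exact ⟨(hR _ hχ).1, (hR _ hχ).2.1⟩
        rw [h3.1, h3.2]
        push_cast
        rw [← Complex.ofReal_intCast (d χ), Complex.conj_ofReal]
      · intro χ _ hχ
        rw [Finset.mem_insert, Finset.mem_insert, not_or, not_or] at hχ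
        have h3 : (χ : G → ℂ) x = 0 ∨ (χ : G → ℂ) y = 0 := by
          by_contra h4
          push Not at h4
          exact hχ.2.2 (Finset.mem_filter.2 ⟨mem_mid.2 ⟨hχ.2.1, hχ.1⟩, h4⟩)
        rcases h3 with h3 | h3 <;> rw [h3] <;> simp
    rw [h1] at h2
    have h3 : (∑ χ ∈ insert (one1 G) (insert St R), c χ * d χ) = 0 := by exact_mod_cast h2.symm
    rw [Finset.sum_insert hins, Finset.sum_insert hRS, hc1, hd1] at h3
    rcases sq_one_cases hcSt with h4 | h4 <;> rcases sq_one_cases hdSt with h5 | h5 <;> rw [h4, h5] at h3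
    · exact ⟨-1, by linarith⟩
    · exact ⟨0, by linarith⟩
    · exact ⟨0, by linarith⟩
    · exact ⟨-1, by linarith⟩
  have hcd : ∑ χ ∈ R, |c χ| * |d χ| ≤ N := by
    have h1 := Finset.sum_mul_sq_le_sq_mul_sq R (fun χ => |c χ|) (fun χ => |d χ|)
    simp only [sq_abs] at h1
    have h2 : 0 ≤ ∑ χ ∈ R, c χ ^ 2 := Finset.sum_nonneg fun χ _ => sq_nonneg _
    have h3 : 0 ≤ ∑ χ ∈ R, d χ ^ 2 := Finset.sum_nonneg fun χ _ => sq_nonneg _
    have h4 : (∑ χ ∈ R, c χ ^ 2) * (∑ χ ∈ R, d χ ^ 2) ≤ ((w : ℤ) * m - 2) * ((v : ℤ) * k - 2) :=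
      mul_le_mul hcR hdR h3 (h2.trans hcR)
    have h5 : (∑ χ ∈ R, |c χ| * |d χ|) ^ 2 < ((N : ℤ) + 2) ^ 2 := (h1.trans h4).trans_lt hN
    have h6 := abs_lt_of_sq_lt_sq h5 (by positivity)
    have h7 := le_abs_self (∑ χ ∈ R, |c χ| * |d χ|)
    obtain ⟨a, ha⟩ := sum_abs_even R c d hpar
    obtain ⟨b, hb⟩ := hNe
    omega
  -- the sum
  rw [sum_mid hSt1, hStg] at h0
  simp only [one1_apply, map_one, map_zero, zero_div, mul_zero, zero_add, mul_one, div_one] at h0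
  have h1 : ∑ χ ∈ mid G St, (χ : G → ℂ) x * (χ : G → ℂ) y * conj ((χ : G → ℂ) g) / (χ : G → ℂ) 1 =
      ∑ χ ∈ R, (χ : G → ℂ) x * (χ : G → ℂ) y * conj ((χ : G → ℂ) g) / (χ : G → ℂ) 1 := by
    refine (Finset.sum_subset (Finset.filter_subset _ _) fun χ h1 h2 => ?_).symm
    have h3 : (χ : G → ℂ) x = 0 ∨ (χ : G → ℂ) y = 0 := by
      by_contra h4
      push Not at h4
      exact h2 (Finset.mem_filter.2 ⟨h1, h4⟩)
    rcases h3 with h3 | h3 <;> rw [h3] <;> simp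
  rw [h1] at h0
  have h2 : (1 : ℝ) ≤ ∑ χ ∈ R, ((|c χ| * |d χ| : ℤ) : ℝ) * (‖(χ : G → ℂ) g‖ / ‖(χ : G → ℂ) 1‖) := by
    have h3 : ∑ χ ∈ R, (χ : G → ℂ) x * (χ : G → ℂ) y * conj ((χ : G → ℂ) g) / (χ : G → ℂ) 1 = -1 := by
      linear_combination h0
    have h4 := norm_sum_le R fun χ => (χ : G → ℂ) x * (χ : G → ℂ) y * conj ((χ : G → ℂ) g) / (χ : G → ℂ) 1
    rw [h3, norm_neg, norm_one] at h4
    refine h4.trans (le_of_eq (Finset.sum_congr rfl fun χ hχ => ?_))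
    obtain ⟨h5, h6, -⟩ := hR χ hχ
    rw [norm_div, norm_mul, norm_mul, Complex.norm_conj, h5, h6, Complex.norm_intCast, Complex.norm_intCast]
    push_cast
    ring
  rcases R.eq_empty_or_nonempty with hRe | ⟨χ₀, hχ₀⟩
  · rw [hRe, Finset.sum_empty] at h2
    linarith
  · have hN0 : 0 < (N : ℝ) := by
      have h3 : |c χ₀| * |d χ₀| ≤ ∑ χ ∈ R, |c χ| * |d χ| :=
        Finset.single_le_sum (f := fun χ => |c χ| * |d χ|) (fun χ _ => by positivity) hχ₀
      obtain ⟨-, -, -, -, h4, h5⟩ := hR χ₀ hχ₀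
      have h6 : 0 < |c χ₀| * |d χ₀| := by positivity
      have h7 : (0 : ℤ) < N := by linarith
      exact_mod_cast h7
    have h3 : ∑ χ ∈ R, ((|c χ| * |d χ| : ℤ) : ℝ) * (‖(χ : G → ℂ) g‖ / ‖(χ : G → ℂ) 1‖) <
        ∑ χ ∈ R, ((|c χ| * |d χ| : ℤ) : ℝ) * (1 / N) := by
      refine Finset.sum_lt_sum_of_nonempty ⟨χ₀, hχ₀⟩ fun χ hχ => ?_
      obtain ⟨-, -, h4, h5, h6, h7⟩ := hR χ hχ
      have h8 : (0 : ℝ) < ((|c χ| * |d χ| : ℤ) : ℝ) := by
        have : 0 < |c χ| * |d χ| := by positivity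
        exact_mod_cast this
      refine mul_lt_mul_of_pos_left ?_ h8
      rw [div_lt_div_iff₀ (norm_one_pos χ) hN0]
      have := hrat χ h5 h4
      linarith
    rw [← Finset.sum_mul] at h3
    have h4 : (∑ χ ∈ R, ((|c χ| * |d χ| : ℤ) : ℝ)) ≤ N := by exact_mod_cast hcd
    have h5 : (∑ χ ∈ R, ((|c χ| * |d χ| : ℤ) : ℝ)) * (1 / N) ≤ N * (1 / N) :=
      mul_le_mul_of_nonneg_right h4 (by positivity)
    have h6 : (N : ℝ) * (1 / N) = 1 := by field_simp
    linarith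

end Cfsg.Agent.H628.FR
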